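import Mathlib

/-! Nilpotent groups of operators without fixed points: supplements contain conjugates. -/

set_option autoImplicit false
set_option linter.unusedSectionVars false

namespace CfsgH4.NilFpf

open Subgroup

universe u

variable {Γ : Type u} [Group Γ]

/-- `Y` covers `F` modulo `C` -/
def Cov (C F Y : Subgroup Γ) : Prop := ∀ f ∈ F, ∃ c ∈ C, c * f ∈ Y

/-- `Y` contains a `C`-conjugate of `F` -/
def Has (C F Y : Subgroup Γ) : Prop := ∃ c ∈ C, ∀ f ∈ F, c * f * c⁻¹ ∈ Y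

structure NF (C F : Subgroup Γ) : Prop where
  nil : Group.IsNilpotent F
  nrm : ∀ f ∈ F, ∀ c ∈ C, f * c * f⁻¹ ∈ C
  dis : ∀ f ∈ F, f ∈ C → f = 1
  fpf : ∀ c ∈ C, (∀ f ∈ F, c * f = f * c) → c = 1

def GS (n : ℕ) : Prop := ∀ (Γ : Type u) [Group Γ] [Finite Γ] (C F L : Subgroup Γ),
  Nat.card C < n → NF C F → Cov C F L → Has C F L

theorem Cov.mono {C F Y Z : Subgroup Γ} (h : Cov C F Y) (l : Y ≤ Z) : Cov C F Z :=
  fun f hf => (h f hf).imp fun _ hc => ⟨hc.1, l hc.2⟩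

theorem Has.mono {C F Y Z : Subgroup Γ} (h : Has C F Y) (l : Y ≤ Z) : Has C F Z :=
  h.imp fun _ hc => ⟨hc.1, fun f hf => l (hc.2 f hf)⟩

theorem Has.cov {C F Y : Subgroup Γ} (h : NF C F) (k : Has C F Y) : Cov C F Y := by
  obtain ⟨c, hc, k⟩ := k
  intro f hf
  refine ⟨c * (f * c⁻¹ * f⁻¹), C.mul_mem hc (h.nrm f hf _ (C.inv_mem hc)), ?_⟩
  convert k f hf using 1
  group

theorem NF.conj {C F D : Subgroup Γ} (h : NF C F) {c : Γ} (hc : c ∈ C) (l : D ≤ C)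
    (n : ∀ f ∈ F, ∀ d ∈ D, c * f * c⁻¹ * d * (c * f * c⁻¹)⁻¹ ∈ D) :
    NF D (F.map (MulAut.conj c).toMonoidHom) := by
  haveI := h.nil
  refine ⟨Group.nilpotent_of_mulEquiv ((MulAut.conj c).subgroupMap F), ?_, ?_, ?_⟩
  · rintro _ ⟨f, hf, rfl⟩ d hd
    exact n f hf d hd
  · rintro _ ⟨f, hf, rfl⟩ hd
    have : c⁻¹ * (c * f * c⁻¹) * c ∈ C := C.mul_mem (C.mul_mem (C.inv_mem hc) (l hd)) hc
    rw [h.dis f hf (by convert this using 1; group), map_one]
  · intro d hd k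
    have := h.fpf (c⁻¹ * d * c) (C.mul_mem (C.mul_mem (C.inv_mem hc) (l hd)) hc) fun f hf => by
      have e : d * (c * f * c⁻¹) = c * f * c⁻¹ * d := k _ ⟨f, hf, rfl⟩
      calc _ = c⁻¹ * (d * (c * f * c⁻¹)) * c := by group
        _ = _ := by rw [e]; group
    calc d = c * (c⁻¹ * d * c) * c⁻¹ := by group
      _ = 1 := by rw [this]; group

variable [Finite Γ]

theorem card_lt {D C : Subgroup Γ} (h : D < C) : Nat.card D < Nat.card C :=
  lt_of_le_of_ne (card_le_of_le h.le) fun e => h.ne (eq_of_le_of_card_ge h.le e.ge)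

theorem step {C F Y L : Subgroup Γ} (ih : GS.{u} (Nat.card C)) (h : NF C F) (n : ¬ C ≤ Y)
    (k : Has C F Y) (l : L ≤ Y) (cv : Cov C F L) : Has C F L := by
  obtain ⟨c, hc, k⟩ := k
  have key : ∀ f ∈ F, ∀ d ∈ C, c * f * c⁻¹ * d * (c * f * c⁻¹)⁻¹ ∈ C := fun f hf d hd => by
    have := C.mul_mem (C.mul_mem hc (h.nrm f hf _ (C.mul_mem (C.mul_mem (C.inv_mem hc) hd) hc)))
      (C.inv_mem hc)
    convert this using 1
    group
  obtain ⟨d, hd, e⟩ := ih Γ (C ⊓ Y) _ L (card_lt (inf_lt_left.2 n))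
    (h.conj hc inf_le_left fun f hf d hd => mem_inf.2 ⟨key f hf d hd.1,
      Y.mul_mem (Y.mul_mem (k f hf) hd.2) (Y.inv_mem (k f hf))⟩) (by
      rintro _ ⟨f, hf, rfl⟩
      obtain ⟨a, ha, e⟩ := cv f hf
      refine ⟨a * f * (c * f * c⁻¹)⁻¹, mem_inf.2 ⟨?_, Y.mul_mem (l e) (Y.inv_mem (k f hf))⟩, ?_⟩
      · have := C.mul_mem (C.mul_mem ha (h.nrm f hf c hc)) (C.inv_mem hc)
        convert this using 1
        group
      · convert e using 1
        simp only [MulEquiv.toMonoidHom_eq_coe, MonoidHom.coe_coe, MulAut.conj_apply]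
        group)
  refine ⟨d * c, C.mul_mem hd.1 hc, fun f hf => ?_⟩
  convert e _ ⟨f, hf, rfl⟩ using 1
  simp only [MulEquiv.toMonoidHom_eq_coe, MonoidHom.coe_coe, MulAut.conj_apply]
  group

/-- fixed points on a quotient -/
theorem quot_fix {C F M : Subgroup Γ} (ih : GS.{u} (Nat.card M + 1)) (h : NF C F) (l : M ≤ C)
    (n : ∀ f ∈ F, ∀ m ∈ M, f * m * f⁻¹ ∈ M) {c : Γ} (hc : c ∈ C)
    (k : ∀ f ∈ F, c * f * c⁻¹ * f⁻¹ ∈ M) : c ∈ M := by
  obtain ⟨m, hm, e⟩ := ih Γ M F (F.map (MulAut.conj c).toMonoidHom) (Nat.lt_succ_self _)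
    ⟨h.nil, n, fun f hf a => h.dis f hf (l a), fun a ha => h.fpf a (l ha)⟩
    fun f hf => ⟨_, k f hf, f, hf, by simp⟩
  have dC : c⁻¹ * m ∈ C := C.mul_mem (C.inv_mem hc) (l hm)
  have := h.fpf _ dC fun f hf => by
    obtain ⟨g, hg, e1⟩ := e f hf
    have e2 : g = c⁻¹ * m * f * (c⁻¹ * m)⁻¹ := by
      have e1 : c * g * c⁻¹ = m * f * m⁻¹ := e1
      calc g = c⁻¹ * (c * g * c⁻¹) * c := by group
        _ = _ := by rw [e1]; group
    have := h.dis (g * f⁻¹) (F.mul_mem hg (F.inv_mem hf)) (by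
      have := C.mul_mem dC (h.nrm f hf _ (C.inv_mem dC))
      rw [e2]
      convert this using 1
      group)
    rw [mul_inv_eq_one, e2, mul_inv_eq_iff_eq_mul] at this
    exact this
  rwa [inv_mul_eq_one.1 this]

/-- `X` is a Sylow `q`-subgroup of `V` -/
def Syl (q : ℕ) (X V : Subgroup Γ) : Prop := Maximal (fun Y => Y ≤ V ∧ IsPGroup q Y) X

theorem Syl.sylow {q : ℕ} {X V : Subgroup Γ} (h : Syl q X V) :
    ∃ P : Sylow q V, (P : Subgroup V) = X.subgroupOf V :=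
  ⟨⟨X.subgroupOf V, h.1.2.comap_subtype, fun {Y} hY l => le_antisymm (fun y hy =>
    h.2 (y := Y.map V.subtype) ⟨map_subtype_le Y, hY.map _⟩
      (fun x hx => ⟨⟨x, h.1.1 hx⟩, l hx, rfl⟩) ⟨y, hy, rfl⟩) l⟩, rfl⟩

theorem Syl.conj {q : ℕ} [Fact q.Prime] {X X' V : Subgroup Γ} (h : Syl q X V) (h' : Syl q X' V) :
    ∃ v ∈ V, ∀ x ∈ X, v * x * v⁻¹ ∈ X' := by
  obtain ⟨P, hP⟩ := h.sylow
  obtain ⟨P', hP'⟩ := h'.sylow
  obtain ⟨v, hv⟩ := MulAction.exists_smul_eq V P P'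
  refine ⟨v, v.2, fun x hx => ?_⟩
  have : v * ⟨x, h.1.1 hx⟩ * v⁻¹ ∈ (P' : Subgroup V) := by
    rw [← hv]
    exact smul_mem_pointwise_smul _ (MulAut.conj v) (P : Subgroup V) (by rw [hP]; exact hx)
  rw [hP'] at this
  exact this

theorem Syl.map {q : ℕ} {X V : Subgroup Γ} (h : Syl q X V) {y : Γ}
    (n : ∀ v, v ∈ V ↔ y * v * y⁻¹ ∈ V) : Syl q (X.map (MulAut.conj y).toMonoidHom) V := by
  refine ⟨⟨?_, h.1.2.map _⟩, fun Y hY l z hz => ?_⟩
  · rintro _ ⟨x, hx, rfl⟩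
    exact (n x).1 (h.1.1 hx)
  · refine ⟨y⁻¹ * z * y, h.2 (y := Y.comap (MulAut.conj y).toMonoidHom)
      ⟨fun w hw => (n w).2 (hY.1 hw), hY.2.comap_of_injective _ (MulAut.conj y).injective⟩
      (fun x hx => l ⟨x, hx, rfl⟩) ?_, by simp [mul_assoc]⟩
    simpa [mul_assoc] using hz

theorem Syl.cover {q : ℕ} [hq : Fact q.Prime] {X V C : Subgroup Γ} (h : Syl q X V)
    (n : ∀ v ∈ V, ∀ c ∈ C, v * c * v⁻¹ ∈ C) (p : ∀ v ∈ V, ∃ k, v ^ q ^ k ∈ C) {v : Γ}
    (hv : v ∈ V) : ∃ x ∈ X, x⁻¹ * v ∈ C := by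
  obtain ⟨P, hP⟩ := h.sylow
  haveI : (C.subgroupOf V).Normal := ⟨fun c hc g => n g g.2 c hc⟩
  have hQ : IsPGroup q (V ⧸ C.subgroupOf V) := fun a => by
    obtain ⟨g, rfl⟩ := QuotientGroup.mk_surjective a
    obtain ⟨k, hk⟩ := p g g.2
    exact ⟨k, by rw [← QuotientGroup.mk_pow, QuotientGroup.eq_one_iff]; exact hk⟩
  obtain ⟨k, hk⟩ := hQ.exists_card_eq
  have t : (P : Subgroup V) ⊔ C.subgroupOf V = ⊤ := by
    rw [← index_eq_one]
    refine Nat.eq_one_of_dvd_coprimes (Nat.Coprime.pow_left k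
      (hq.out.coprime_iff_not_dvd.2 P.not_dvd_index)) ?_ (index_dvd_of_le le_sup_left)
    rw [← hk]
    exact index_dvd_of_le le_sup_right
  obtain ⟨x, hx, d, hd, e⟩ := mem_sup_of_normal_right.1 (t.ge (mem_top ⟨v, hv⟩))
  rw [hP] at hx
  refine ⟨x, hx, ?_⟩
  have e : (x : Γ) * d = v := congrArg Subtype.val e
  rw [← e, inv_mul_cancel_left]
  exact hd

theorem Syl.of_normalizer {q : ℕ} [Fact q.Prime] {X U : Subgroup Γ}
    (h : Syl q X (normalizer X ⊓ U)) : Syl q X U := by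
  refine ⟨⟨h.1.1.trans inf_le_right, h.1.2⟩, fun Y hY l => ?_⟩
  by_contra n
  haveI := hY.2.isNilpotent
  obtain ⟨y, hy, hn⟩ := SetLike.exists_of_lt (Group.normalizerCondition_of_isNilpotent
    (X.subgroupOf Y) (lt_top_iff_ne_top.2 fun e => n (subgroupOf_eq_top.1 e)))
  have yN : (y : Γ) ∈ normalizer X := mem_normalizer_fintype fun x hx =>
    (mem_normalizer_iff.1 hy ⟨x, l hx⟩).1 hx
  exact hn (h.2 (y := normalizer X ⊓ Y) ⟨inf_le_inf_left _ hY.1, hY.2.to_inf_right⟩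
    (le_inf le_normalizer l) ⟨yN, y.2⟩)

/-- `A` is a normal `q`-subgroup of `F` and `U = C A` -/
structure PD (q : ℕ) (C F A U : Subgroup Γ) : Prop where
  nf : NF C F
  le : A ≤ F
  pg : IsPGroup q A
  nA : ∀ f ∈ F, ∀ a ∈ A, f * a * f⁻¹ ∈ A
  mem : ∀ u, u ∈ U ↔ ∃ c ∈ C, ∃ a ∈ A, c * a = u

namespace PD

variable {q : ℕ} [hq : Fact q.Prime] {C F A U : Subgroup Γ} (h : PD q C F A U)
include h

theorem nU {c f : Γ} (hc : c ∈ C) (hf : f ∈ F) {u : Γ} (hu : u ∈ U) :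
    c * f * u * (c * f)⁻¹ ∈ U := by
  obtain ⟨d, hd, a, ha, rfl⟩ := (h.mem u).1 hu
  have ha' := h.nA f hf a ha
  refine (h.mem _).2 ⟨_, C.mul_mem (C.mul_mem hc (h.nf.nrm f hf d hd))
    (h.nf.nrm _ (h.le ha') _ (C.inv_mem hc)), _, ha', ?_⟩
  group

theorem nC {u : Γ} (hu : u ∈ U) {c : Γ} (hc : c ∈ C) : u * c * u⁻¹ ∈ C := by
  obtain ⟨d, hd, a, ha, rfl⟩ := (h.mem u).1 hu
  convert C.mul_mem (C.mul_mem hd (h.nf.nrm a (h.le ha) c hc)) (C.inv_mem hd) using 1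
  group

theorem powU {u : Γ} (hu : u ∈ U) : ∃ k, u ^ q ^ k ∈ C := by
  obtain ⟨d, hd, a, ha, rfl⟩ := (h.mem u).1 hu
  have key : ∀ n : ℕ, (d * a) ^ n * (a ^ n)⁻¹ ∈ C := fun n => by
    induction n with
    | zero => simp
    | succ n ih =>
      convert C.mul_mem hd (h.nf.nrm a (h.le ha) _ ih) using 1
      rw [pow_succ', pow_succ' a]
      group
  obtain ⟨k, hk⟩ := h.pg ⟨a, ha⟩
  have hk : a ^ q ^ k = 1 := congrArg Subtype.val hk
  exact ⟨k, by simpa [hk] using key (q ^ k)⟩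

theorem cover {X Y : Subgroup Γ} (s : Syl q X (Y ⊓ U)) {v : Γ} (hv : v ∈ Y ⊓ U) :
    ∃ x ∈ X, x⁻¹ * v ∈ C :=
  s.cover (fun _ hv _ hc => h.nC hv.2 hc) (fun _ hv => h.powU hv.2) hv

theorem frattini {X Y : Subgroup Γ} (cv : Cov C F Y) (s : Syl q X (Y ⊓ U)) :
    Cov C F (Y ⊓ normalizer X) := by
  intro f hf
  obtain ⟨c, hc, hy⟩ := cv f hf
  have n : c * f ∈ normalizer (Y ⊓ U : Subgroup Γ) := mem_normalizer_fintype fun v hv =>
    ⟨Y.mul_mem (Y.mul_mem hy hv.1) (Y.inv_mem hy), h.nU hc hf hv.2⟩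
  obtain ⟨v, hv, e⟩ := (s.map (mem_normalizer_iff.1 n)).conj s
  have vN : v * (c * f) ∈ normalizer X := mem_normalizer_fintype fun x hx => by
    have := e _ ⟨x, hx, rfl⟩
    convert this using 1
    simp [mul_assoc]
  obtain ⟨x, hx, d⟩ := h.cover s hv
  refine ⟨_, C.mul_mem d hc, ?_⟩
  rw [mul_assoc, mul_assoc]
  exact mem_inf.2 ⟨Y.mul_mem (Y.inv_mem (s.1.1 hx).1) (Y.mul_mem hv.1 hy),
    mul_mem (inv_mem (le_normalizer hx)) vN⟩

theorem covA {X L : Subgroup Γ} (cv : Cov C F L) (s : Syl q X (L ⊓ U)) : Cov C A X := by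
  intro a ha
  obtain ⟨c, hc, hy⟩ := cv a (h.le ha)
  obtain ⟨x, hx, d⟩ := h.cover s (v := c * a) ⟨hy, (h.mem _).2 ⟨c, hc, a, ha, rfl⟩⟩
  refine ⟨_, C.mul_mem hc (h.nf.nrm a (h.le ha) _ (C.inv_mem d)), ?_⟩
  convert hx using 1
  group

theorem caseA (ih : GS.{u} (Nat.card C))
    (hA : ∀ X, X ≤ U → IsPGroup q X → Cov C A X → ¬ C ≤ normalizer X) {L : Subgroup Γ}
    (cv : Cov C F L) : Has C F L := by
  -- an invariant Sylow subgroup
  obtain ⟨S, -, hS⟩ := Finite.exists_le_maximal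
    (p := fun X : Subgroup Γ => X ≤ U ∧ IsPGroup q X ∧ Cov C A X ∧ Has C F (normalizer X)) (a := A)
    ⟨fun a ha => (h.mem a).2 ⟨1, C.one_mem, a, ha, one_mul a⟩, h.pg,
      fun a ha => ⟨1, C.one_mem, by rwa [one_mul]⟩, 1, C.one_mem, fun f hf => by
        rw [one_mul, inv_one, mul_one]
        exact mem_normalizer_fintype (h.nA f hf)⟩
  obtain ⟨SU, Sq, SA, SF⟩ := hS.1
  have sS : Syl q S U := by
    obtain ⟨X, l, s⟩ := Finite.exists_le_maximal
      (p := fun Y : Subgroup Γ => Y ≤ normalizer S ⊓ U ∧ IsPGroup q Y) ⟨le_inf le_normalizer SU, Sq⟩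
    have := hS.2 (y := X) ⟨s.1.1.trans inf_le_right, s.1.2, SA.mono l,
      (step ih h.nf (hA S SU Sq SA) SF inf_le_left (h.frattini (SF.cov h.nf) s)).mono
        inf_le_right⟩ l
    refine Syl.of_normalizer ?_
    nth_rewrite 1 [le_antisymm l this]
    exact s
  have climb : ∀ X : Subgroup Γ, X ≤ U → IsPGroup q X → Cov C A X → Cov C F (normalizer X) →
      Has C F (normalizer X) := by
    intro X
    induction X using WellFoundedGT.induction with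
    | ind X IH =>
    intro XU Xq XA XF
    obtain ⟨Y, l, s⟩ := Finite.exists_le_maximal
      (p := fun Y : Subgroup Γ => Y ≤ normalizer X ⊓ U ∧ IsPGroup q Y) ⟨le_inf le_normalizer XU, Xq⟩
    rcases l.eq_or_lt with e | lt
    · have sX : Syl q X U := Syl.of_normalizer (by nth_rewrite 1 [e]; exact s)
      obtain ⟨v, hv, e1⟩ := sS.conj sX
      obtain ⟨x, hx, d⟩ := h.cover (Y := ⊤) (X := S) (by rwa [top_inf_eq]) (v := v⁻¹)
        ⟨trivial, U.inv_mem hv⟩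
      have le := (sS.map (mem_normalizer_iff.1 (le_normalizer hv))).2 sX.1 (by
        rintro _ ⟨s, hs, rfl⟩
        exact e1 s hs)
      obtain ⟨c, hc, k⟩ := SF
      refine ⟨_, C.mul_mem (C.inv_mem d) hc, fun f hf => mem_normalizer_fintype fun y hy => ?_⟩
      obtain ⟨s, hs, rfl⟩ := le hy
      have := e1 _ (S.mul_mem (S.mul_mem hx ((mem_normalizer_iff.1 (k f hf) _).1
        (S.mul_mem (S.mul_mem (S.inv_mem hx) hs) hx))) (S.inv_mem hx))
      rw [SetLike.mem_coe]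
      convert this using 1
      simp only [MulEquiv.toMonoidHom_eq_coe, MonoidHom.coe_coe, MulAut.conj_apply]
      group
    · have fr := h.frattini XF s
      have YU := s.1.1.trans inf_le_right
      exact (step ih h.nf (hA Y YU s.1.2 (XA.mono l)) (IH Y lt YU s.1.2 (XA.mono l)
        (fr.mono inf_le_right)) inf_le_right fr).mono inf_le_left
  obtain ⟨X, -, s⟩ := Finite.exists_le_maximal
    (p := fun Y : Subgroup Γ => Y ≤ L ⊓ U ∧ IsPGroup q Y) (a := ⊥) ⟨bot_le, IsPGroup.of_bot⟩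
  have fr := h.frattini cv s
  have XU := s.1.1.trans inf_le_right
  have XA := h.covA cv s
  exact (step ih h.nf (hA X XU s.1.2 XA) (climb X XU s.1.2 XA (fr.mono inf_le_right))
    inf_le_right fr).mono inf_le_left

end PD

/-- the Sylow `q`-subgroup of the nilpotent group `F` -/
noncomputable def sy (q : ℕ) (F : Subgroup Γ) : Subgroup Γ :=
  ((default : Sylow q F) : Subgroup F).map F.subtype

theorem NF.pd {C F : Subgroup Γ} (h : NF C F) (q : ℕ) [Fact q.Prime] :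
    PD q C F (sy q F) (C ⊔ sy q F) := by
  haveI := h.nil
  have le : sy q F ≤ F := map_subtype_le _
  refine ⟨h, le, (default : Sylow q F).2.map _, ?_, fun u => ?_⟩
  · rintro f hf _ ⟨a, ha, rfl⟩
    exact ⟨_, (inferInstance : (default : Sylow q F).Normal).conj_mem a ha ⟨f, hf⟩, rfl⟩
  · rw [← SetLike.mem_coe, coe_mul_of_right_le_normalizer_left C _
      fun a ha => mem_normalizer_fintype (h.nrm a (le ha))]
    rfl

theorem NF.comm {C F : Subgroup Γ} (h : NF C F) {p q : ℕ} [Fact p.Prime] [Fact q.Prime]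
    (n : p ≠ q) {a b : Γ} (ha : a ∈ sy p F) (hb : b ∈ sy q F) : a * b = b * a := by
  haveI := h.nil
  obtain ⟨a, ha, rfl⟩ := ha
  obtain ⟨b, hb, rfl⟩ := hb
  exact congrArg Subtype.val (commute_of_normal_of_disjoint _ _ inferInstance inferInstance
    (IsPGroup.disjoint_of_ne p q n _ _ (default : Sylow p F).2 (default : Sylow q F).2) a b ha hb)

theorem NF.fpf' {C F : Subgroup Γ} (h : NF C F) {c : Γ} (hc : c ∈ C)
    (k : ∀ p : ℕ, p.Prime → ∀ a ∈ sy p F, c * a = a * c) : c = 1 := by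
  have : (centralizer {c}).subgroupOf F = ⊤ := by
    rw [← index_eq_one, Nat.eq_one_iff_not_exists_prime_dvd]
    intro p hp d
    haveI : Fact p.Prime := ⟨hp⟩
    exact (default : Sylow p F).not_dvd_index (d.trans (index_dvd_of_le fun a ha =>
      mem_centralizer_singleton_iff.2 (k p hp a ⟨a, ha, rfl⟩).symm))
  exact h.fpf c hc fun f hf => (mem_centralizer_singleton_iff.1 (subgroupOf_eq_top.1 this hf)).symm

theorem NF.triv {C F W : Subgroup Γ} (h : NF C F) {q : ℕ} [hq : Fact q.Prime] (l : W ≤ C)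
    (pg : IsPGroup q W) (n : ∀ a ∈ sy q F, ∀ w ∈ W, a * w * a⁻¹ ∈ W)
    (k : ∀ p : ℕ, p.Prime → p ≠ q → ∀ a ∈ sy p F, ∀ w ∈ W, w * a = a * w) : W = ⊥ := by
  by_contra ne
  letI : MulAction (sy q F) W :=
    { smul := fun a w => ⟨a * w * (a : Γ)⁻¹, n a a.2 w w.2⟩
      one_smul := fun w => Subtype.ext (show ((1 : Γ) * w * (1 : Γ)⁻¹) = w by group)
      mul_smul := fun a b w => Subtype.ext
        (show ((a : Γ) * b) * w * ((a : Γ) * b)⁻¹ = a * (b * w * (b : Γ)⁻¹) * (a : Γ)⁻¹ by group) }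
  have d : q ∣ Nat.card W := by
    obtain ⟨m, hm⟩ := pg.exists_card_eq
    rw [hm]
    refine dvd_pow_self q ?_
    rintro rfl
    exact ne (eq_bot_of_card_eq W hm)
  obtain ⟨w, hw, n1⟩ := (h.pd q).pg.exists_fixed_point_of_prime_dvd_card_of_fixed_point W d (a := 1)
    fun a => Subtype.ext (show (a : Γ) * 1 * (a : Γ)⁻¹ = 1 by group)
  refine n1 (Subtype.ext (h.fpf' (l w.2) fun p hp a ha => ?_).symm)
  by_cases e : p = q
  · subst e
    have : a * w * a⁻¹ = w := congrArg Subtype.val (hw ⟨a, ha⟩)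
    exact (mul_inv_eq_iff_eq_mul.1 this).symm
  · exact k p hp e a ha w w.2

theorem caseB2 {C F : Subgroup Γ} (h : NF C F)
    (hB : ∀ q : ℕ, q.Prime → ∃ X, X ≤ C ⊔ sy q F ∧ IsPGroup q X ∧ Cov C (sy q F) X ∧
      C ≤ normalizer X)
    (hM : ∀ M, M ≤ C → C ≤ normalizer M → F ≤ normalizer M → M = ⊥ ∨ M = C) : C = ⊥ := by
  have key : ∀ q : ℕ, q.Prime → IsPGroup q C ∨ ∀ a ∈ sy q F, ∀ c ∈ C, c * a = a * c := by
    intro q hq
    haveI : Fact q.Prime := ⟨hq⟩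
    have pd := h.pd q
    obtain ⟨X0, h0⟩ := hB q hq
    obtain ⟨X, -, hX⟩ := Finite.exists_le_maximal (p := fun X : Subgroup Γ =>
      X ≤ C ⊔ sy q F ∧ IsPGroup q X ∧ Cov C (sy q F) X ∧ C ≤ normalizer X) h0
    obtain ⟨XU, Xq, XA, CX⟩ := hX.1
    have UX : C ⊔ sy q F ≤ normalizer X := sup_le CX fun a ha => by
      obtain ⟨c, hc, e⟩ := XA a ha
      rw [← inv_mul_cancel_left c a]
      exact mul_mem (inv_mem (CX hc)) (le_normalizer e)
    have FX : F ≤ normalizer X := fun f hf => mem_normalizer_fintype fun x hx => by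
      have fU : X.map (MulAut.conj f).toMonoidHom ≤ C ⊔ sy q F := by
        rintro _ ⟨y, hy, rfl⟩
        simpa using pd.nU C.one_mem hf (XU hy)
      refine hX.2 (y := X ⊔ X.map (MulAut.conj f).toMonoidHom) ⟨sup_le XU fU,
        Xq.to_sup_of_normal_left' (Xq.map _) (fU.trans UX), XA.mono le_sup_left, fun c hc => ?_⟩
        le_sup_left (mem_sup_right ⟨x, hx, rfl⟩)
      refine normalizer_inf_normalizer_le_normalizer_sup _ _ ⟨CX hc, mem_normalizer_fintype ?_⟩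
      rintro _ ⟨y, hy, rfl⟩
      refine ⟨_, (mem_normalizer_iff.1 (CX (h.nrm _ (F.inv_mem hf) c hc)) y).1 hy, ?_⟩
      simp only [MulEquiv.toMonoidHom_eq_coe, MonoidHom.coe_coe, MulAut.conj_apply]
      group
    rcases hM (X ⊓ C) inf_le_right
      (fun c hc => inf_normalizer_le_normalizer_inf ⟨CX hc, le_normalizer hc⟩)
      (fun f hf => inf_normalizer_le_normalizer_inf
        ⟨FX hf, mem_normalizer_fintype (h.nrm f hf)⟩) with e | e
    · right
      have XC : ∀ x ∈ X, x ∈ C → x = 1 := fun x a b => mem_bot.1 (e.le ⟨a, b⟩)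
      have AX : sy q F ≤ normalizer X := le_sup_right.trans UX
      have mem : ∀ w, w ∈ X ⊔ sy q F ↔ ∃ x ∈ X, ∃ a ∈ sy q F, x * a = w := fun w => by
        rw [← SetLike.mem_coe, coe_mul_of_right_le_normalizer_left X _ AX]
        rfl
      have W := h.triv (W := C ⊓ (X ⊔ sy q F)) inf_le_left
        (Xq.to_sup_of_normal_left' pd.pg AX).to_inf_right
        (fun a ha w hw => mem_inf.2 ⟨h.nrm a (pd.le ha) w hw.1,
          mul_mem (mul_mem (mem_sup_right ha) (mem_inf.1 hw).2) (inv_mem (mem_sup_right ha))⟩) (by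
          intro p hp n b hb w hw
          haveI : Fact p.Prime := ⟨hp⟩
          obtain ⟨x, hx, a, ha, rfl⟩ := (mem w).1 hw.2
          have bF := (h.pd p).le hb
          have ba := h.comm n hb ha
          have e1 : b * (x * a) * b⁻¹ * (x * a)⁻¹ = b * x * b⁻¹ * x⁻¹ := by
            calc _ = b * x * b⁻¹ * (b * a) * b⁻¹ * (x * a)⁻¹ := by group
              _ = _ := by rw [ba]; group
          have := XC _ (X.mul_mem ((mem_normalizer_iff.1 (FX bF) x).1 hx) (X.inv_mem hx))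
            (e1 ▸ C.mul_mem (h.nrm b bF _ hw.1) (C.inv_mem hw.1))
          rw [← e1, mul_inv_eq_one, mul_inv_eq_iff_eq_mul] at this
          exact this.symm)
      intro a ha c hc
      obtain ⟨d, hd, e1⟩ := XA a ha
      have d1 : d = 1 := mem_bot.1
        (W.le (mem_inf.2 ⟨hd, (mem d).2 ⟨_, e1, _, inv_mem ha, by group⟩⟩))
      rw [d1, one_mul] at e1
      have := XC (c * a * c⁻¹ * a⁻¹) (X.mul_mem ((mem_normalizer_iff.1 (CX hc) a).1 e1)
        (X.inv_mem e1)) (by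
          convert C.mul_mem hc (h.nrm a (pd.le ha) _ (C.inv_mem hc)) using 1
          group)
      rwa [mul_inv_eq_one, mul_inv_eq_iff_eq_mul] at this
    · exact Or.inl (e ▸ Xq.to_inf_left)
  by_cases e : ∃ q : ℕ, q.Prime ∧ IsPGroup q C
  · obtain ⟨q, hq, Cq⟩ := e
    haveI : Fact q.Prime := ⟨hq⟩
    by_contra ne
    refine ne (h.triv le_rfl Cq (fun a ha => h.nrm a ((h.pd q).le ha)) fun p hp n => ?_)
    haveI : Fact p.Prime := ⟨hp⟩
    exact (key p hp).resolve_left fun Cp =>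
      ne (disjoint_self.1 (IsPGroup.disjoint_of_ne p q n _ _ Cp Cq))
  · exact eq_bot_iff.2 fun c hc => h.fpf' hc fun p hp a ha =>
      (key p hp).resolve_left (fun Cp => e ⟨p, hp, Cp⟩) a ha c hc

theorem caseB1 {C F M L : Subgroup Γ} (ih : ∀ m ≤ Nat.card C, GS.{u} m) (h : NF C F) (lt : M < C)
    (ne : M ≠ ⊥) (CM : C ≤ normalizer M) (FM : F ≤ normalizer M) (cv : Cov C F L) :
    Has C F L := by
  haveI := h.nil
  have fM : ∀ f ∈ F, ∀ m ∈ M, f * m * f⁻¹ ∈ M := fun f hf m =>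
    (mem_normalizer_iff.1 (FM hf) m).1
  set N : Subgroup Γ := normalizer (M : Set Γ) with hN
  haveI : (M.subgroupOf N).Normal := normal_in_normalizer
  let φ := QuotientGroup.mk' (M.subgroupOf N)
  have ker : ∀ x : N, φ x = 1 ↔ (x : Γ) ∈ M := fun x => QuotientGroup.eq_one_iff x
  have cd : Nat.card ((C.subgroupOf N).map φ) < Nat.card C := by
    rw [← Nat.card_congr (subgroupOfEquivOfLe CM).toEquiv]
    obtain ⟨m, hm, m1⟩ := (bot_or_exists_ne_one M).resolve_left ne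
    refine lt_of_le_of_ne (Nat.card_le_card_of_surjective _ (φ.subgroupMap_surjective _))
      fun e => m1 ?_
    have := ((φ.subgroupMap_surjective (C.subgroupOf N)).bijective_of_nat_card_le e.ge).1
      (a₁ := ⟨⟨m, CM (lt.le hm)⟩, lt.le hm⟩) (a₂ := 1)
      (Subtype.ext (by rw [map_one]; exact (ker _).2 hm))
    exact congrArg (fun x => (x.1 : Γ)) this
  have nf : NF ((C.subgroupOf N).map φ) ((F.subgroupOf N).map φ) := by
    refine ⟨?_, ?_, ?_, ?_⟩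
    · haveI := Group.nilpotent_of_mulEquiv (subgroupOfEquivOfLe FM).symm
      exact Group.nilpotent_of_surjective _ (φ.subgroupMap_surjective _)
    · rintro _ ⟨f, hf, rfl⟩ _ ⟨c, hc, rfl⟩
      exact ⟨f * c * f⁻¹, h.nrm f hf c hc, by simp⟩
    · rintro _ ⟨f, hf, rfl⟩ ⟨c, hc, e⟩
      have : (c : Γ)⁻¹ * f ∈ M := (ker (c⁻¹ * f)).1 (by rw [map_mul, map_inv, e, inv_mul_cancel])
      have f1 := h.dis f hf (by
        have := C.mul_mem (show (c : Γ) ∈ C from hc) (lt.le this)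
        rwa [mul_inv_cancel_left] at this)
      exact (ker f).2 (f1 ▸ M.one_mem)
    · rintro _ ⟨c, hc, rfl⟩ k
      refine (ker c).2 (quot_fix (ih _ (card_lt lt)) h lt.le fM hc fun f hf => ?_)
      refine (ker (c * ⟨f, FM hf⟩ * c⁻¹ * (⟨f, FM hf⟩ : N)⁻¹)).1 ?_
      rw [map_mul, map_mul, map_mul, k _ ⟨⟨f, FM hf⟩, hf, rfl⟩, map_inv, map_inv]
      group
  obtain ⟨_, ⟨c, hc, rfl⟩, k⟩ := ih _ le_rfl _ _ _ ((L.subgroupOf N).map φ) cd nf (by
    rintro _ ⟨f, hf, rfl⟩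
    obtain ⟨c, hc, e⟩ := cv f hf
    exact ⟨_, ⟨⟨c, CM hc⟩, hc, rfl⟩, ⟨c, CM hc⟩ * f, e, by simp⟩)
  have hc : (c : Γ) ∈ C := hc
  obtain ⟨m, hm, e⟩ := ih _ le_rfl Γ M _ L (card_lt lt)
    (h.conj hc lt.le fun f hf m => (mem_normalizer_iff.1
      (N.mul_mem (N.mul_mem c.2 (FM hf)) (N.inv_mem c.2)) m).1) (by
      rintro _ ⟨f, hf, rfl⟩
      obtain ⟨l, hl, e⟩ := k _ ⟨⟨f, FM hf⟩, hf, rfl⟩
      refine ⟨_, (ker (l * (c * ⟨f, FM hf⟩ * c⁻¹)⁻¹)).1 ?_, ?_⟩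
      · rw [map_mul, map_inv, e, map_mul, map_mul, map_inv, mul_inv_cancel]
      · have hl : (l : Γ) ∈ L := hl
        convert hl using 1
        simp [mul_assoc])
  refine ⟨m * c, C.mul_mem (lt.le hm) hc, fun f hf => ?_⟩
  convert e _ ⟨f, hf, rfl⟩ using 1
  simp only [MulEquiv.toMonoidHom_eq_coe, MonoidHom.coe_coe, MulAut.conj_apply]
  group

omit [Finite Γ] in
/-- A supplement to `C` in `C F` contains a `C`-conjugate of `F`. -/
theorem gs (n : ℕ) : GS.{u} n := by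
  induction n using Nat.strong_induction_on with
  | _ n IH =>
  intro Γ _ _ C F L lt h cv
  have ih : ∀ m ≤ Nat.card C, GS.{u} m := fun m hm => IH m (hm.trans_lt lt)
  by_cases hA : ∃ q : ℕ, q.Prime ∧ ∀ X, X ≤ C ⊔ sy q F → IsPGroup q X → Cov C (sy q F) X →
      ¬ C ≤ normalizer X
  · obtain ⟨q, hq, hA⟩ := hA
    haveI : Fact q.Prime := ⟨hq⟩
    exact (h.pd q).caseA (ih _ le_rfl) hA cv
  by_cases hM : ∃ M, M < C ∧ M ≠ ⊥ ∧ C ≤ normalizer M ∧ F ≤ normalizer M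
  · obtain ⟨M, l, ne, CM, FM⟩ := hM
    exact caseB1 ih h l ne CM FM cv
  have := caseB2 h (fun q hq => by
      by_contra n
      exact hA ⟨q, hq, fun X a b c d => n ⟨X, a, b, c, d⟩⟩)
    fun M l CM FM => by
      by_contra n
      exact hM ⟨M, lt_of_le_of_ne l fun e => n (Or.inr e), fun e => n (Or.inl e), CM, FM⟩
  subst this
  refine ⟨1, one_mem _, fun f hf => ?_⟩
  obtain ⟨c, hc, e⟩ := cv f hf
  rw [mem_bot.1 hc] at e
  simpa using e

end CfsgH4.NilFpf
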