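import Cfsg.Agent.L0.PSolv
import Cfsg.Agent.H2.Coprime2
import Cfsg.Agent.H2.PGroup
import Cfsg.Agent.H4.Basic

/-! Groups whose maximal subgroups are `p`-nilpotent or of prime index. -/

set_option autoImplicit false

namespace CfsgH4

open Subgroup Cfsg CfsgL0

universe u

theorem normal_piResidualOf {G : Type*} [Group G] (π : Set ℕ) {H : Subgroup G} (h : H.Normal) :
    (piResidualOf π H).Normal :=
  normalizer_eq_top_iff.1 (eq_top_iff.2 (le_normalizer_of_normal.trans
    normalizer_le_normalizer_piResidualOf))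

theorem plen_aux (p : ℕ) [hp : Fact p.Prime] (n : ℕ) : ∀ (G : Type u) [Group G] [Finite G],
    Nat.card G = n → IsPSolvable p G →
    (∀ M : Subgroup G, IsCoatom M → piResidualOf {p}ᶜ (piResidualOf {p} M) = ⊥ ∨ M.index.Prime) →
    piResidualOf {p}ᶜ (piResidualOf {p} (piResidualOf {p}ᶜ (piResidualOf {p}
      (⊤ : Subgroup G)))) = ⊥ := by
  induction n using Nat.strong_induction_on with
  | _ n ih =>
  intro G _ _ hn hG hmax
  subst hn
  set C := piResidualOf {p} (⊤ : Subgroup G) with hC
  set B := piResidualOf {p}ᶜ C with hB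
  set K := piResidualOf {p} B with hK
  set T := piResidualOf {p}ᶜ K with hT
  have hCn : C.Normal := normal_piResidualOf _ inferInstance
  have hBn : B.Normal := normal_piResidualOf _ hCn
  have hKn : K.Normal := normal_piResidualOf _ hBn
  have hTn : T.Normal := normal_piResidualOf _ hKn
  have hmin : ∀ N : Subgroup G, N.Normal → N ≠ ⊥ → T ≤ N := by
    intro N _ hN
    have h1 := ih _ (by
      rw [card_eq_card_quotient_mul_card_subgroup N]
      exact lt_mul_of_one_lt_right Nat.card_pos ((one_lt_card_iff_ne_bot N).2 hN)) (G ⧸ N) rfl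
      (isPSolvable_quotient hG N) (fun M hM => by
        rcases hmax _ (isCoatom_comap_of_surjective (QuotientGroup.mk'_surjective N) hM) with h | h
        · left
          rw [← map_comap_eq_self_of_surjective (QuotientGroup.mk'_surjective N) M,
            ← map_piResidualOf, ← map_piResidualOf, h, Subgroup.map_bot]
        · right
          rwa [index_comap_of_surjective _ (QuotientGroup.mk'_surjective N)] at h)
    rwa [← map_top_of_surjective _ (QuotientGroup.mk'_surjective N), ← map_piResidualOf,
      ← map_piResidualOf, ← map_piResidualOf, ← map_piResidualOf, Subgroup.map_eq_bot_iff,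
      QuotientGroup.ker_mk'] at h1
  by_contra hT1
  have hO : pPrimeCore p G = ⊥ := by
    by_contra h
    apply hT1
    rw [hT, ← piResidualOf_piResidualOf, piResidualOf_eq_bot_iff]
    exact ((isPi_compl_singleton_iff hp.out).2 (coprime_card_pPrimeCore G p)).of_le
      (hmin _ inferInstance h)
  have : Nontrivial G := by
    by_contra h
    rw [not_nontrivial_iff_subsingleton] at h
    exact hT1 (Subsingleton.elim _ _)
  have hTp : IsPGroup p T := (isPGroup_pCore G p).to_le (hmin _ inferInstance
    ((pCore_ne_bot_or_pPrimeCore_ne_bot hG).resolve_right (not_not.2 hO)))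
  have hTK : T ≤ K := piResidualOf_le
  have hKp : ¬ IsPGroup p K := by
    intro h
    apply hT1
    rw [eq_bot_iff]
    refine hTK.trans (le_of_eq ?_)
    rw [hK, ← piResidualOf_piResidualOf, piResidualOf_eq_bot_iff]
    exact isPGroup_iff_isPi.1 h
  have hcop : IsPi {p}ᶜ (T.relIndex K) := isPi_relIndex_piResidualOf
  obtain ⟨H', hH'⟩ := exists_right_complement'_of_coprime (N := T.subgroupOf K)
    (((isPGroup_iff_isPi.1 hTp).subgroupOf K).coprime hcop)
  set H := H'.map K.subtype with hH
  have hHc : IsPi {p}ᶜ (Nat.card H) := by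
    rw [card_map_of_injective K.subtype_injective, ← hH'.symm.index_eq_card]; exact hcop
  have hTH : T ⊔ H = K := by
    have := congrArg (map K.subtype) hH'.sup_eq_top
    rwa [Subgroup.map_sup, map_subgroupOf_eq_of_le hTK, ← MonoidHom.range_eq_map,
      range_subtype] at this
  have hFr : normalizer (H : Set G) ⊔ T = ⊤ := by
    rw [eq_top_iff]
    intro g _
    obtain ⟨t, ht, h⟩ := CfsgH2.exists_conj_le_of_le_sup (A := H) (N := T) (K := CfsgH2.cj g H)
      le_normalizer_of_normal
      (disjoint_of_coprime_natCard ((isPGroup_iff_isPi.1 hTp).coprime hHc).symm) (by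
        rw [hTH, CfsgH2.cj_le_iff]
        exact fun x hx => hKn.conj_mem x (map_subtype_le _ hx) g) (by
        rw [CfsgH2.card_cj]; exact ((isPGroup_iff_isPi.1 hTp).coprime hHc).symm)
      (Or.inr (CfsgH2.isSolvable_of_isPGroup hTp))
    have h1 : t * g ∈ normalizer (H : Set G) := mem_normalizer_fintype fun x hx => by
      simpa [mul_assoc] using h _ (CfsgH2.conj_mem_cj g hx)
    exact (mul_mem_cancel_left (mem_sup_right ht)).1 (mem_sup_left h1)
  have hN : normalizer (H : Set G) ≠ ⊤ := by
    intro h
    have := normalizer_eq_top_iff.1 h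
    have h1 : H ≤ pPrimeCore p G := le_pPrimeCore ((isPi_compl_singleton_iff hp.out).1 hHc)
    rw [hO, le_bot_iff] at h1
    rw [h1, sup_bot_eq] at hTH
    exact hKp (hTH ▸ hTp)
  obtain ⟨M, hM, hHM⟩ := (eq_top_or_exists_le_coatom _).resolve_left hN
  have hMT : M ⊔ T = ⊤ := eq_top_iff.2 (hFr.ge.trans (sup_le_sup_right hHM _))
  rcases hmax M hM with h | h
  · have h1 := congrArg (map (QuotientGroup.mk' T)) h
    rw [map_piResidualOf, map_piResidualOf, Subgroup.map_bot,
      show M.map (QuotientGroup.mk' T) = (⊤ : Subgroup G).map (QuotientGroup.mk' T) by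
        rw [← hMT, Subgroup.map_sup, (Subgroup.map_eq_bot_iff T).2 (QuotientGroup.ker_mk' T).ge,
          sup_bot_eq], ← map_piResidualOf, ← map_piResidualOf, Subgroup.map_eq_bot_iff,
      QuotientGroup.ker_mk'] at h1
    exact hKp (hTp.to_le (piResidualOf_le.trans h1))
  · have hTc : T ≤ centralizer (T : Set G) := by
      obtain ⟨z, hz, hz1, hzc⟩ := exists_central_ne_one hTp hT1
      refine (hmin (T ⊓ centralizer (T : Set G)) inferInstance (fun h => hz1 ?_)).trans inf_le_right
      exact mem_bot.1 (h ▸ ⟨hz, hzc⟩)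
    have hTM : T ⊓ M = ⊥ := by
      by_contra h1
      have h2 : (T ⊓ M).Normal := by
        rw [← normalizer_eq_top_iff, eq_top_iff, ← hMT]
        exact sup_le (CfsgH2.le_normalizer_inf le_normalizer_of_normal le_normalizer)
          (hTc.trans ((centralizer_le inf_le_left).trans (centralizer_le_normalizer _)))
      have h3 := (hmin _ h2 h1).trans inf_le_right
      rw [sup_eq_left.2 h3] at hMT
      exact hM.1 hMT
    have hTcard : Nat.card T = M.index := by
      have h1 := relIndex_sup_right M T
      rw [hMT, relIndex_top_right, ← inf_relIndex_right, hTM, relIndex_bot_left] at h1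
      have h2 := T.card_mul_index
      rw [h1, ← M.index_mul_card] at h2
      exact Nat.eq_of_mul_eq_mul_right Nat.card_pos h2
    have hTp' : Nat.card T = p := by
      obtain ⟨k, hk⟩ := IsPGroup.iff_card.1 hTp
      rw [← hTcard, hk] at h
      rw [hk, h.eq_one_of_pow, pow_one]
    have : IsCyclic T := isCyclic_of_prime_card hTp'
    have h1 : B ≤ centralizer (T : Set G) := by
      refine piResidualOf_le_of_relIndex le_normalizer_of_normal (IsPi.of_dvd ?_
        (relIndex_dvd_index_of_normal _ _))
      have h2 : (centralizer (T : Set G)).index ∣ p - 1 := by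
        rw [← Nat.totient_prime hp.out, ← hTp', ← IsCyclic.card_mulAut, ← relIndex_top_right,
          ← normalizer_eq_top T, Subgroup.relIndex, ← normalizerMonoidHom_ker, index_ker]
        exact card_subgroup_dvd_card _
      refine IsPi.of_dvd ((isPi_compl_singleton_iff hp.out).2 ?_) h2
      exact (Nat.coprime_self_sub_left hp.out.one_le).2 (Nat.coprime_one_left p)
    apply hN
    rw [eq_top_iff, ← hFr]
    refine sup_le le_rfl ((le_centralizer_iff.1 ?_).trans (centralizer_le_normalizer _))
    exact (map_subtype_le _).trans (piResidualOf_le.trans h1)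

theorem plen {G : Type*} [Group G] [Finite G] (p : ℕ) [hp : Fact p.Prime] (hG : IsPSolvable p G)
    (hmax : ∀ M : Subgroup G, IsCoatom M → (∃ K : Subgroup ↥M, K.Normal ∧ ¬ p ∣ Nat.card K ∧
      ∃ k : ℕ, K.index = p ^ k) ∨ (M.index).Prime) :
    ∃ A B C : Subgroup G, A.Normal ∧ B.Normal ∧ C.Normal ∧ A ≤ B ∧ B ≤ C ∧ ¬ p ∣ Nat.card A ∧
      (∃ k : ℕ, A.relIndex B = p ^ k) ∧ ¬ p ∣ B.relIndex C ∧ ∃ k : ℕ, C.index = p ^ k := by
  have h := plen_aux p _ G rfl hG (fun M hM => (hmax M hM).imp_left (by
    rintro ⟨K, hK, h1, k, h2⟩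
    rw [piResidualOf_eq_bot_iff, piResidualOf_def, card_map_of_injective M.subtype_injective]
    exact ((isPi_compl_singleton_iff' hp.out).2 h1).of_le (piResidual_le
      ((isPi_singleton_iff hp.out index_ne_zero_of_finite).2 ⟨k, h2⟩))))
  have hCn : (piResidualOf {p} (⊤ : Subgroup G)).Normal := normal_piResidualOf _ inferInstance
  refine ⟨_, _, _, normal_piResidualOf {p} (normal_piResidualOf {p}ᶜ hCn),
    normal_piResidualOf {p}ᶜ hCn, hCn, piResidualOf_le, piResidualOf_le,
    (isPi_compl_singleton_iff' hp.out).1 (piResidualOf_eq_bot_iff.1 h),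
    (isPi_singleton_iff hp.out index_ne_zero_of_finite).1 isPi_relIndex_piResidualOf,
    (isPi_compl_singleton_iff' hp.out).1 isPi_relIndex_piResidualOf, ?_⟩
  rw [← relIndex_top_right]
  exact (isPi_singleton_iff hp.out index_ne_zero_of_finite).1 isPi_relIndex_piResidualOf

end CfsgH4
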