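import Mathlib
import Cfsg.Agent.H4.Dihedral

/-! Transitive groups in which every involution fixes exactly one point: counting. -/

namespace CfsgH4
open Subgroup MulAction Finset

/-- Every involution fixes exactly one point of the transitive `G`-set `Ω`. -/
structure SEAct (G Ω : Type*) [Group G] [MulAction G Ω] : Prop where
  ex : ∀ t : G, orderOf t = 2 → ∃ α : Ω, t • α = α
  uniq : ∀ t : G, orderOf t = 2 → ∀ α β : Ω, t • α = α → t • β = β → α = β
  trans : ∀ α β : Ω, ∃ g : G, g • α = β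

variable {G Ω : Type*} [Group G] [MulAction G Ω]

open Classical in
/-- Involutions mapping `α` to `β`. -/
noncomputable def invW (G : Type*) {Ω : Type*} [Group G] [MulAction G Ω] [Finite G] (α β : Ω) :
    Finset G :=
  (Set.toFinite {t : G | orderOf t = 2 ∧ t • α = β}).toFinset

theorem mem_invW [Finite G] {α β : Ω} {t : G} : t ∈ invW G α β ↔ orderOf t = 2 ∧ t • α = β := by
  simp [invW]

theorem smul_smul_invol {t : G} (ht : orderOf t = 2) (α : Ω) : t • t • α = α := by
  rw [smul_smul, mul_self_of_orderOf ht, one_smul]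

namespace SEAct

theorem fix_of_commute (h : SEAct G Ω) {s g : G} (hs : orderOf s = 2) {α : Ω} (hα : s • α = α)
    (hc : g * s = s * g) : g • α = α :=
  h.uniq s hs _ _ (by rw [smul_smul, ← hc, mul_smul, hα]) hα

theorem conj_fix {s : G} {α : Ω} (hα : s • α = α) (g : G) : (g * s * g⁻¹) • g • α = g • α := by
  rw [smul_smul, inv_mul_cancel_right, mul_smul, hα]

theorem odd_mul [Finite G] (h : SEAct G Ω) {s t : G} (hs : orderOf s = 2) (ht : orderOf t = 2)
    {α β : Ω} (hα : s • α = α) (hβ : t • β = β) (hne : α ≠ β) : Odd (orderOf (s * t)) := by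
  rw [← Nat.not_even_iff_odd]
  intro he
  have h2 := orderOf_pow_half he (orderOf_pos _).ne'
  set z := (s * t) ^ (orderOf (s * t) / 2)
  have hz : z ∈ zpowers (s * t) := pow_mem (mem_zpowers _) _
  have c1 := dih_commute_left (mul_self_of_orderOf hs) (mul_self_of_orderOf ht) hz
    (mul_self_of_orderOf h2)
  have c2 := dih_commute_right (mul_self_of_orderOf hs) (mul_self_of_orderOf ht) hz
    (mul_self_of_orderOf h2)
  exact hne (h.uniq z h2 _ _ (h.fix_of_commute hs hα c1.eq) (h.fix_of_commute ht hβ c2.eq))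

theorem exists_swap [Finite G] (h : SEAct G Ω) {s t : G} (hs : orderOf s = 2) (ht : orderOf t = 2)
    {α β : Ω} (hα : s • α = α) (hβ : t • β = β) (hne : α ≠ β) :
    ∃ w : G, orderOf w = 2 ∧ w • α = β ∧ w * s * w⁻¹ = t := by
  have hs' := mul_self_of_orderOf hs
  have ht' := mul_self_of_orderOf ht
  obtain ⟨n, hn⟩ := dih_conj_of_odd hs' ht' (h.odd_mul hs ht hα hβ hne)
  set c := (s * t) ^ n
  have h1 : s * c * s⁻¹ = c⁻¹ := inverts_pow (dih_inv_left hs' ht') n
  have h2 : c⁻¹ * s * s * (c⁻¹ * s)⁻¹ = t := by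
    rw [mul_inv_rev, inv_inv, mul_assoc (c⁻¹ * s), mul_inv_cancel_left, ← hn]; group
  have h3 : (c⁻¹ * s) • α = β := h.uniq t ht _ _ (by rw [← h2]; exact conj_fix hα _) hβ
  refine ⟨c⁻¹ * s, CfsgH4.orderOf_eq_two_iff.2 ⟨?_, fun e => hne ?_⟩, h3, h2⟩
  · have h4 : s * c⁻¹ * s = c := by
      have := congrArg (·⁻¹) h1
      simp only [mul_inv_rev, inv_inv] at this
      rw [inv_eq_of_orderOf hs] at this
      rw [mul_assoc, this]
    calc c⁻¹ * s * (c⁻¹ * s) = c⁻¹ * (s * c⁻¹ * s) := by group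
      _ = 1 := by rw [h4, inv_mul_cancel]
  · rw [← h3, e, one_smul]

theorem card_invW_self [Finite G] (h : SEAct G Ω) (α β : Ω) :
    #(invW G α α) = #(invW G β β) := by
  have key : ∀ α β : Ω, #(invW G α α) ≤ #(invW G β β) := fun α β => by
    obtain ⟨g, rfl⟩ := h.trans α β
    refine card_le_card_of_injOn (fun s => g * s * g⁻¹) (fun s hs => ?_) fun a _ b _ e => ?_
    · obtain ⟨h1, h2⟩ := mem_invW.1 (mem_coe.1 hs)
      exact mem_coe.2 (mem_invW.2 ⟨by rw [orderOf_conj', h1], conj_fix h2 g⟩)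
    · simpa using e
  exact le_antisymm (key α β) (key β α)

theorem card_invW_ge [Finite G] (h : SEAct G Ω) {α β : Ω} (hne : α ≠ β) :
    #(invW G α α) ≤ #(invW G α β) := by
  classical
  rcases (invW G α α).eq_empty_or_nonempty with h0 | ⟨s, hs⟩
  · simp [h0]
  obtain ⟨hs, hα⟩ := mem_invW.1 hs
  rw [h.card_invW_self α β]
  refine card_le_card_of_surjOn (fun w => w * s * w⁻¹) fun t ht => ?_
  obtain ⟨ht, hβ⟩ := mem_invW.1 (mem_coe.1 ht)
  obtain ⟨w, h1, h2, h3⟩ := h.exists_swap hs ht hα hβ hne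
  exact ⟨w, mem_coe.2 (mem_invW.2 ⟨h1, h2⟩), h3⟩

theorem card_invW [Finite G] [Finite Ω] (h : SEAct G Ω) (α β : Ω) :
    #(invW G α β) = #(invW G α α) := by
  classical
  have := Fintype.ofFinite Ω
  have := Fintype.ofFinite G
  set I : Finset G := univ.filter fun t => orderOf t = 2
  have h1 : #I = ∑ β : Ω, #(invW G α β) := by
    rw [card_eq_sum_card_fiberwise (f := fun t => t • α) (t := univ) (fun _ _ => mem_coe.2 (mem_univ _))]
    refine sum_congr rfl fun β _ => ?_
    congr 1; ext t; simp [I, mem_invW]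
  have h2 : #I = ∑ β : Ω, #(invW G α α) := by
    let f : G → Ω := fun t => if ht : orderOf t = 2 then (h.ex t ht).choose else α
    rw [card_eq_sum_card_fiberwise (f := f) (t := univ) (fun _ _ => mem_coe.2 (mem_univ _))]
    refine sum_congr rfl fun β _ => ?_
    rw [h.card_invW_self α β]
    congr 1; ext t
    simp only [I, mem_filter, mem_univ, true_and, mem_invW]
    refine and_congr_right fun ht => ?_
    simp only [f, dif_pos ht]
    have := (h.ex t ht).choose_spec
    exact ⟨fun e => e ▸ this, fun e => h.uniq t ht _ _ this e⟩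
  have h3 := (sum_eq_sum_iff_of_le (s := univ) (f := fun _ => #(invW G α α))
    (g := fun β => #(invW G α β)) fun β _ => by
      by_cases e : α = β
      · rw [← e]
      · exact h.card_invW_ge e).1 (h2.symm.trans h1) β (mem_univ _)
  exact h3.symm

/-- If there are two distinct commuting involutions, the stabiliser of two points interchanged by
an involution `u` does not fix the point fixed by `u`. -/
theorem exists_not_fix [Finite G] [Finite Ω] (h : SEAct G Ω) {a b : G} (ha : orderOf a = 2)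
    (hb : orderOf b = 2) (hab : a ≠ b) (hc : a * b = b * a) {u : G} (hu : orderOf u = 2)
    {α β : Ω} (hα : u • α = α) (hne : β ≠ α) :
    ∃ x : G, x • β = β ∧ x • u • β = u • β ∧ x • α ≠ α := by
  by_contra hcon
  push Not at hcon
  have h1 : invW G β (u • β) ⊆ invW G α α := fun w hw => by
    obtain ⟨hw, hwβ⟩ := mem_invW.1 hw
    have h2 := hcon (u * w) (by rw [mul_smul, hwβ, smul_smul_invol hu])
      (by rw [mul_smul, ← hwβ, smul_smul_invol hw, hwβ])
    refine mem_invW.2 ⟨hw, ?_⟩
    have := congrArg (u • ·) h2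
    simpa only [mul_smul, smul_smul_invol hu, hα] using this
  have h2 := eq_of_subset_of_card_le h1 (by rw [h.card_invW β, h.card_invW_self α β])
  obtain ⟨γ, hγ⟩ := h.ex a ha
  obtain ⟨g, rfl⟩ := h.trans γ α
  have hbγ : b • γ = γ := h.fix_of_commute ha hγ hc.symm
  have hab2 : orderOf (a * b) = 2 := by
    refine CfsgH4.orderOf_eq_two_iff.2 ⟨?_, fun e => hab ?_⟩
    · calc a * b * (a * b) = a * (b * a) * b := by group
        _ = (a * a) * (b * b) := by rw [← hc]; group
        _ = 1 := by rw [mul_self_of_orderOf ha, mul_self_of_orderOf hb, one_mul]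
    · rw [eq_inv_of_mul_eq_one_left e, inv_eq_of_orderOf hb]
  have key : ∀ c : G, orderOf c = 2 → c • γ = γ → (g * c * g⁻¹) • β = u • β := fun c h3 h4 => by
    have : g * c * g⁻¹ ∈ invW G (g • γ) (g • γ) :=
      mem_invW.2 ⟨by rw [orderOf_conj', h3], conj_fix h4 g⟩
    rw [← h2] at this
    exact (mem_invW.1 this).2
  have h5 := key _ hab2 (by rw [mul_smul, hbγ, hγ])
  rw [show g * (a * b) * g⁻¹ = (g * a * g⁻¹) * (g * b * g⁻¹) by group, mul_smul, key b hb hbγ,
    ← key a ha hγ, smul_smul_invol (by rw [orderOf_conj', ha])] at h5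
  rw [key a ha hγ] at h5
  exact hne (h.uniq u hu _ _ h5.symm hα)

/-- Some product of two involutions with different fixed points has no fixed point. -/
theorem exists_fpf [Finite G] [Finite Ω] (h : SEAct G Ω) {s : G} (hs : orderOf s = 2) {α β : Ω}
    (hα : s • α = α) (hne : β ≠ α) :
    ∃ t : G, orderOf t = 2 ∧ t • α ≠ α ∧ ∀ γ : Ω, (s * t) • γ ≠ γ := by
  classical
  have := Fintype.ofFinite Ω
  by_contra hcon
  push Not at hcon
  set n := #(invW G α α)
  have hn : 0 < n := card_pos.2 ⟨s, mem_invW.2 ⟨hs, hα⟩⟩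
  have h1 : (univ.erase α).biUnion (fun β => invW G α β) ⊆
      (univ.erase α).biUnion fun β => (invW G β (s • β)).erase s := fun t ht => by
    obtain ⟨β, hβ, ht⟩ := mem_biUnion.1 ht
    obtain ⟨ht, htβ⟩ := mem_invW.1 ht
    have h2 : t • α ≠ α := by rw [htβ]; exact (mem_erase.1 hβ).1
    obtain ⟨γ, hγ⟩ := hcon t ht h2
    have h3 : t • γ = s • γ := by
      have := congrArg (s • ·) hγ
      simpa only [mul_smul, smul_smul_invol hs] using this
    refine mem_biUnion.2 ⟨γ, mem_erase.2 ⟨?_, mem_univ _⟩, mem_erase.2 ⟨?_, mem_invW.2 ⟨ht, h3⟩⟩⟩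
    · rintro rfl; exact h2 (h3.trans hα)
    · rintro rfl; exact h2 hα
  have h2 := card_le_card h1
  rw [card_biUnion (fun β _ γ _ hβγ => disjoint_left.2 fun t h3 h4 =>
    hβγ ((mem_invW.1 h3).2.symm.trans (mem_invW.1 h4).2))] at h2
  have h3 := h2.trans card_biUnion_le
  have h4 : ∑ β ∈ univ.erase α, #((invW G β (s • β)).erase s) <
      ∑ β ∈ univ.erase α, #(invW G α β) :=
    sum_lt_sum_of_nonempty ⟨β, mem_erase.2 ⟨hne, mem_univ _⟩⟩ fun β _ => by
      rw [card_erase_of_mem (mem_invW.2 ⟨hs, rfl⟩), h.card_invW β, h.card_invW α,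
        h.card_invW_self β α]
      omega
  omega

end SEAct

end CfsgH4
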