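import Mathlib
import Cfsg.Agent.H4.SECount
import Cfsg.Agent.H4.ZStar
import Cfsg.Agent.H2.Generation
import Cfsg.Agent.H1.Invol
import Cfsg.Agent.L0.CoresOf

/-! Maximal two-point stabilisers in a group with a strongly embedded point stabiliser. -/

namespace CfsgH4
open Subgroup MulAction Cfsg CfsgL0

theorem even_orderOf_mul_three {N : Type*} [Group N] [Finite N]
    (h : ∀ a b : N, orderOf a = 2 → orderOf b = 2 → a * b = b * a → a = b) {a b c : N}
    (ha : orderOf a = 2) (hb : orderOf b = 2) (hc : orderOf c = 2) :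
    Even (orderOf (a * b * c)) := by
  set O := pPrimeCore 2 N
  let π := QuotientGroup.mk' O
  have hO : ∀ x : N, π x = 1 → Odd (orderOf x) := fun x hx =>
    (odd_card_pPrimeCore (G := N)).of_dvd_nat
      (O.orderOf_dvd_natCard ((QuotientGroup.eq_one_iff _).1 hx))
  have key : ∀ a b : N, orderOf a = 2 → orderOf b = 2 → π a = π b := fun a b ha hb => by
    have hi : Isol a := isol_of_commute ha fun w hw hcw =>
      (h a w ha (by rw [← orderOf_eq_of_isConj hw, ha]) hcw.eq).symm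
    have h1 : π (a * b * a⁻¹ * b⁻¹) = 1 :=
      (QuotientGroup.eq_one_iff _).2 (zstar (mul_self_of_orderOf ha) hi b)
    rw [inv_eq_of_orderOf ha, inv_eq_of_orderOf hb, mul_assoc (a * b), map_mul] at h1
    have h2 : Odd (orderOf (a * b)) := by
      by_cases e : IsConj a b
      · exact hi a b (IsConj.refl a) e
      · obtain ⟨z, -, hz, h3, h4⟩ := exists_involution_commute_of_not_isConj
          (mul_self_of_orderOf ha) (mul_self_of_orderOf hb) e
        exact absurd ((h z a hz ha h3.eq).symm.trans (h z b hz hb h4.eq)) fun e' => e (e' ▸ IsConj.refl a)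
    have h3 : π (a * b) = 1 := by
      refine eq_one_of_odd_of_two_pow (a := 1) h2 ?_ (by rw [pow_one, sq, h1])
      rw [← map_pow, pow_orderOf_eq_one, map_one]
    rw [map_mul] at h3
    rw [eq_inv_of_mul_eq_one_left h3, ← map_inv, inv_eq_of_orderOf hb]
  rw [← Nat.not_odd_iff_even]
  intro ho
  have h1 : π (a * b * c) = π a := by
    rw [map_mul, map_mul, key b a hb ha, key c a hc ha, ← map_mul, mul_self_of_orderOf ha, map_one,
      one_mul]
  have h2 : π a = 1 := by
    refine eq_one_of_odd_of_two_pow (a := 1) ho ?_ ?_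
    · rw [← h1, ← map_pow, pow_orderOf_eq_one, map_one]
    · rw [pow_one, sq, ← map_mul, mul_self_of_orderOf ha, map_one]
  have := hO a h2
  rw [ha] at this
  exact absurd this (by decide)

variable {G Ω : Type*} [Group G] [MulAction G Ω]

theorem smul_fix_of_mem_normalizer {D : Subgroup G} {g : G} (hg : g ∈ normalizer (D : Set G))
    {γ : Ω} (hγ : D ≤ stabilizer G γ) : D ≤ stabilizer G (g • γ) := fun x hx => by
  have h1 : g⁻¹ * x * g⁻¹⁻¹ ∈ D := (mem_normalizer_iff.1 (inv_mem hg) x).1 hx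
  have h2 := mem_stabilizer_iff.1 (hγ h1)
  rw [mem_stabilizer_iff, smul_smul, show x * g = g * (g⁻¹ * x * g⁻¹⁻¹) by group, mul_smul, h2]

namespace SEAct

theorem odd_card_stab [Finite G] (h : SEAct G Ω) {α β : Ω} (hne : α ≠ β) :
    Odd (Nat.card (stabilizer G α ⊓ stabilizer G β : Subgroup G)) :=
  odd_card_iff_no_involution.2 fun t ht h2 => hne (h.uniq t h2 _ _ ht.1 ht.2)

theorem swap_mem_normalizer [Finite G] {w : G} (hw : orderOf w = 2) {α β : Ω} (h : w • α = β) :
    w ∈ normalizer ((stabilizer G α ⊓ stabilizer G β : Subgroup G) : Set G) := by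
  refine mem_normalizer_of_conj_mem fun x hx => ⟨?_, ?_⟩
  · have := conj_fix (mem_stabilizer_iff.1 hx.2) w
    rwa [← h, smul_smul_invol hw] at this
  · have := conj_fix (mem_stabilizer_iff.1 hx.1) w
    rwa [h] at this

theorem exists_invW [Finite G] [Finite Ω] (h : SEAct G Ω) {a : G} (ha : orderOf a = 2)
    (α β : Ω) : ∃ w : G, orderOf w = 2 ∧ w • α = β := by
  obtain ⟨γ, hγ⟩ := h.ex a ha
  have : 0 < (invW G α β).card := by
    rw [h.card_invW, h.card_invW_self α γ]
    exact Finset.card_pos.2 ⟨a, mem_invW.2 ⟨ha, hγ⟩⟩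
  obtain ⟨w, hw⟩ := Finset.card_pos.1 this
  exact ⟨w, mem_invW.1 hw⟩

/-- A subgroup of odd order normalised by a four-group fixes the point fixed by the four-group. -/
theorem le_stab_of_four [Finite G] (h : SEAct G Ω) {a b : G} (ha : orderOf a = 2)
    (hb : orderOf b = 2) (hab : a ≠ b) (hc : a * b = b * a) {D : Subgroup G}
    (hD : Odd (Nat.card D)) (haD : a ∈ normalizer (D : Set G)) (hbD : b ∈ normalizer (D : Set G))
    {γ : Ω} (hγ : a • γ = γ) : D ≤ stabilizer G γ := by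
  have ha' := mul_self_of_orderOf ha
  have hb' := mul_self_of_orderOf hb
  set V := closure ({a, b} : Set G)
  have hab1 : (a * b) ^ 2 ^ 1 = 1 := by
    rw [pow_one, (show Commute a b from hc).mul_pow, sq, sq, ha', hb', one_mul]
  have hV : IsPGroup 2 V := dih_isPGroup ha' hb' hab1
  have hcomm : ∀ x ∈ ({a, b} : Set G), ∀ y ∈ ({a, b} : Set G), x * y = y * x := by
    rintro x (rfl | rfl) y (rfl | rfl) <;> simp [hc]
  have hVc : IsMulCommutative V := isMulCommutative_closure hcomm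
  have haV : a ∈ V := subset_closure (by simp)
  have hbV : b ∈ V := subset_closure (by simp)
  have he : ∀ v ∈ V, v * v = 1 := fun v hv => by
    induction hv using closure_induction with
    | mem x hx => rcases hx with rfl | rfl <;> assumption
    | one => simp
    | mul x y hx hy h1 h2 =>
      have := congrArg Subtype.val (hVc.is_comm.comm ⟨x, hx⟩ ⟨y, hy⟩)
      simp only [coe_mul] at this
      calc x * y * (x * y) = x * (y * x) * y := by group
        _ = (x * x) * (y * y) := by rw [← this]; group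
        _ = 1 := by rw [h1, h2, one_mul]
    | inv x _ h1 => rw [← mul_inv_rev, h1, inv_one]
  refine CfsgH2.le_of_noncyclic hVc (fun hcy => hab ?_) ((closure_le _).2 ?_) ?_
    fun v hv hv1 x hx => ?_
  · exact congrArg Subtype.val (CfsgH1.eq_of_mul_self_of_isCyclic hcy (x := ⟨a, haV⟩)
      (y := ⟨b, hbV⟩) (Subtype.ext ha') (Subtype.ext hb')
      (fun e => ne_one_of_orderOf ha (congrArg Subtype.val e))
      fun e => ne_one_of_orderOf hb (congrArg Subtype.val e))
  · rintro x (rfl | rfl) <;> assumption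
  · obtain ⟨k, hk⟩ := hV.exists_card_eq
    rw [hk]; exact Nat.Coprime.pow_left k (Nat.coprime_two_left.2 hD)
  · have hv2 : orderOf v = 2 := CfsgH4.orderOf_eq_two_iff.2 ⟨he v hv, hv1⟩
    have h1 : v • γ = γ := h.fix_of_commute ha hγ
      (congrArg Subtype.val (hVc.is_comm.comm ⟨v, hv⟩ ⟨a, haV⟩))
    exact h.fix_of_commute hv2 h1 (mem_centralizer_singleton_iff.1 hx.2)

/-- A maximal two-point stabiliser fixes exactly two points. -/
theorem fix_eq_of_max [Finite G] [Finite Ω] (h : SEAct G Ω) {a b : G} (ha : orderOf a = 2)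
    (hb : orderOf b = 2) (hab : a ≠ b) (hc : a * b = b * a) {α β : Ω} (hne : α ≠ β)
    (hmax : ∀ γ δ : Ω, γ ≠ δ → stabilizer G α ⊓ stabilizer G β ≤ stabilizer G γ ⊓ stabilizer G δ →
      stabilizer G γ ⊓ stabilizer G δ ≤ stabilizer G α ⊓ stabilizer G β)
    {γ : Ω} (hγ : stabilizer G α ⊓ stabilizer G β ≤ stabilizer G γ) : γ = α ∨ γ = β := by
  set D := stabilizer G α ⊓ stabilizer G β
  have hodd : Odd (Nat.card D) := h.odd_card_stab hne
  have star : ∀ u ∈ normalizer (D : Set G), orderOf u = 2 → ∀ δ : Ω, D ≤ stabilizer G δ →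
      u • δ ≠ δ := fun u hu hu2 δ hδ e => by
    obtain ⟨ε, hε, hεδ⟩ : ∃ ε : Ω, D ≤ stabilizer G ε ∧ ε ≠ δ := by
      by_cases e1 : α = δ
      · exact ⟨β, inf_le_right, fun e2 => hne (e1.trans e2.symm)⟩
      · exact ⟨α, inf_le_left, e1⟩
    obtain ⟨x, h1, h2, h3⟩ := h.exists_not_fix ha hb hab hc hu2 e hεδ
    refine h3 (hδ (hmax ε (u • ε) (fun e2 => hεδ (h.uniq u hu2 _ _ e2.symm e))
      (le_inf hε (smul_fix_of_mem_normalizer hu hε)) ⟨h1, h2⟩))
  have hsw : ∀ γ δ : Ω, γ ≠ δ → D ≤ stabilizer G γ → D ≤ stabilizer G δ →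
      ∃ w ∈ normalizer (D : Set G), orderOf w = 2 ∧ w • γ = δ := fun γ δ h1 h2 h3 => by
    obtain ⟨w, hw, hw'⟩ := h.exists_invW ha γ δ
    have := swap_mem_normalizer hw hw'
    rw [← le_antisymm (le_inf h2 h3) (hmax γ δ h1 (le_inf h2 h3))] at this
    exact ⟨w, this, hw, hw'⟩
  by_contra hcon
  push Not at hcon
  obtain ⟨w₁, n₁, o₁, e₁⟩ := hsw α β hne inf_le_left inf_le_right
  obtain ⟨w₂, n₂, o₂, e₂⟩ := hsw β γ hcon.2.symm inf_le_right hγ
  obtain ⟨w₃, n₃, o₃, e₃⟩ := hsw γ α hcon.1 hγ inf_le_left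
  have h4 : Even (orderOf ((⟨w₃, n₃⟩ * ⟨w₂, n₂⟩ * ⟨w₁, n₁⟩ : normalizer (D : Set G)))) := by
    refine even_orderOf_mul_three (fun x y hx hy hxy => ?_) (by rw [← Subgroup.orderOf_coe]; exact o₃)
      (by rw [← Subgroup.orderOf_coe]; exact o₂) (by rw [← Subgroup.orderOf_coe]; exact o₁)
    rw [← Subgroup.orderOf_coe] at hx hy
    by_contra hxy'
    obtain ⟨δ, hδ⟩ := h.ex x hx
    exact star x x.2 hx δ (h.le_stab_of_four hx hy (fun e => hxy' (Subtype.ext e))
      (congrArg Subtype.val hxy) hodd x.2 y.2 hδ) hδ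
  rw [← Subgroup.orderOf_coe] at h4
  simp only [coe_mul] at h4
  have h5 : w₃ * w₂ * w₁ ∈ stabilizer G α := by
    rw [mem_stabilizer_iff, mul_smul, mul_smul, e₁, e₂, e₃]
  exact star _ (pow_mem (mul_mem (mul_mem n₃ n₂) n₁) _) (orderOf_pow_half h4 (orderOf_pos _).ne') α
    inf_le_left (pow_mem h5 _)

/-- If all two-point stabilisers are `p`-groups then every `p`-element fixes a point. -/
theorem exists_fix_of_pElt [Finite G] [Finite Ω] (h : SEAct G Ω) {a b : G} (ha : orderOf a = 2)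
    (hb : orderOf b = 2) (hab : a ≠ b) (hc : a * b = b * a) {p : ℕ} [hp : Fact p.Prime]
    (hp2 : p ≠ 2) [Nontrivial Ω]
    (hP : ∀ α β : Ω, α ≠ β → IsPGroup p (stabilizer G α ⊓ stabilizer G β : Subgroup G))
    {x : G} {k : ℕ} (hx : x ^ p ^ k = 1) : ∃ γ : Ω, x • γ = γ := by
  obtain ⟨D, ⟨α, β, hne, rfl⟩, hmax⟩ := (wellFounded_gt (α := Subgroup G)).has_min
    {D | ∃ α β : Ω, α ≠ β ∧ D = stabilizer G α ⊓ stabilizer G β}
    (by obtain ⟨α, β, hne⟩ := exists_pair_ne Ω; exact ⟨_, α, β, hne, rfl⟩)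
  set D := stabilizer G α ⊓ stabilizer G β
  have hfix : ∀ γ : Ω, D ≤ stabilizer G γ → γ = α ∨ γ = β := fun γ hγ =>
    h.fix_eq_of_max ha hb hab hc hne (fun γ δ h1 h2 =>
      (eq_of_le_of_not_lt h2 (hmax _ ⟨γ, δ, h1, rfl⟩)).ge) hγ
  obtain ⟨P, hDP⟩ := (hP α β hne).exists_le_sylow
  have hDP' : (P : Subgroup G) ≤ D := by
    by_contra hcon
    obtain ⟨g, hg, hgD, hgN⟩ := exists_mem_normalizer_of_lt P.2
      (lt_of_le_of_ne hDP fun e => hcon e.ge)
    have h1 := hfix _ (smul_fix_of_mem_normalizer hgN inf_le_left)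
    have h2 := hfix _ (smul_fix_of_mem_normalizer hgN inf_le_right)
    have h3 : g * g ∈ D := by
      rcases h1 with h1 | h1 <;> rcases h2 with h2 | h2
      · exact absurd (smul_left_cancel g (h1.trans h2.symm)) hne
      · exact mul_mem ⟨h1, h2⟩ ⟨h1, h2⟩
      · exact mem_inf.2 ⟨by rw [mem_stabilizer_iff, mul_smul, h1, h2],
          by rw [mem_stabilizer_iff, mul_smul, h2, h1]⟩
      · exact absurd (smul_left_cancel g (h1.trans h2.symm)) hne
    obtain ⟨j, hj⟩ := P.2 ⟨g, hg⟩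
    have hj' : g ^ p ^ j = 1 := congrArg Subtype.val hj
    obtain ⟨m, hm⟩ : Odd (p ^ j) := (hp.out.odd_of_ne_two hp2).pow
    apply hgD
    have : g = ((g * g) ^ m)⁻¹ := by
      rw [hm, pow_succ, pow_mul, sq] at hj'
      exact eq_inv_of_mul_eq_one_right hj'
    rw [this]; exact inv_mem (pow_mem h3 m)
  obtain ⟨g, hg⟩ := exists_conj_mem_sylow_of_pow P hx
  refine ⟨g⁻¹ • α, ?_⟩
  have := conj_fix (mem_stabilizer_iff.1 (hDP' hg).1) g⁻¹
  rwa [show g⁻¹ * (g * x * g⁻¹) * g⁻¹⁻¹ = x by group] at this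

end SEAct

end CfsgH4
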